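import Cfsg.Agent.H259.L64.KThree

/-!
# S5916, dimension 32: the eigenvalues of the elements of order dividing 15 of `E₈(2)` (helper167)

* `check15` : enumeration of the Kac coordinates of order 15 with rational eigenvalue multiplicities over `𝔽₂`;
* `kac15` : `m₀ < 32` or `8 m₁ + 2 m₅ + 32 ≤ 3 m₀ + 4 m₃`;
* `arith` : the multiplicities of the four modules of dimension 2 add up to at most 32.
-/

set_option autoImplicit false
set_option maxRecDepth 100000

namespace Cfsg.Agent.H167.L16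

open Cfsg Cfsg.Lie
open Cfsg.Agent.ChevalleyStructure Cfsg.Agent.ChevalleyStructure.CoxeterGeomTypes
open Cfsg.Agent.H942.E8Tab Cfsg.Agent.H942.E8Alc Cfsg.Agent.H942.E8Val
open Cfsg.Agent.H944.RootVals Cfsg.Agent.H944.Tab Cfsg.Agent.H944.Kac
open Cfsg.Agent.H259.L64 Cfsg.Agent.H939.L64

/-- the condition on the Kac coordinates -/
def pB15 (Y : List ℕ) : Bool := bif invB 15 2 R8 Y then
    (Nat.blt (cn 15 0 Y + 8) 32 || Nat.ble (8 * cn 15 1 Y + 2 * cn 15 5 Y + 32) (3 * (cn 15 0 Y + 8) + 4 * cn 15 3 Y))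
    else true

theorem check15_a : allAlc [4, 6, 5, 4, 3, 2] 15 (fun y => pB15 (0 :: 0 :: y)) = true := by decide +kernel

theorem check15_b : ((List.range 5).all fun k => allAlc [4, 6, 5, 4, 3, 2] (15 - 3 * (1 + k))
    (fun y => pB15 (0 :: (1 + k) :: y))) = true := by decide +kernel

theorem check15_c : allAlc [3, 4, 6, 5, 4, 3, 2] 13 (fun y => pB15 (1 :: y)) = true := by decide +kernel

theorem check15_d : allAlc [3, 4, 6, 5, 4, 3, 2] 11 (fun y => pB15 (2 :: y)) = true := by decide +kernel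

theorem check15_e : ((List.range 5).all fun k => allAlc [3, 4, 6, 5, 4, 3, 2] (15 - 2 * (3 + k))
    (fun y => pB15 ((3 + k) :: y))) = true := by decide +kernel

theorem check15_zero : allAlc [3, 4, 6, 5, 4, 3, 2] 15 (fun y => pB15 (0 :: y)) = true := by
  rw [allAlc, List.all_eq_true]
  intro y hy
  have hy' : y < 6 := List.mem_range.1 hy
  clear hy
  interval_cases y
  · exact check15_a
  · exact List.all_eq_true.1 check15_b 0 (by decide)
  · exact List.all_eq_true.1 check15_b 1 (by decide)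
  · exact List.all_eq_true.1 check15_b 2 (by decide)
  · exact List.all_eq_true.1 check15_b 3 (by decide)
  · exact List.all_eq_true.1 check15_b 4 (by decide)

/-- the enumeration of the Kac coordinates: `m₀ < 32` or `8 m₁ + 2 m₅ + 32 ≤ 3 m₀ + 4 m₃` -/
theorem check15 : allAlc th8 15 (fun Y => bif invB 15 2 R8 Y then
    (Nat.blt (cn 15 0 Y + 8) 32 || Nat.ble (8 * cn 15 1 Y + 2 * cn 15 5 Y + 32) (3 * (cn 15 0 Y + 8) + 4 * cn 15 3 Y))
    else true) = true := by
  change allAlc [2, 3, 4, 6, 5, 4, 3, 2] 15 pB15 = true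
  rw [allAlc, List.all_eq_true]
  intro x hx
  have hx' : x < 8 := List.mem_range.1 hx
  clear hx
  interval_cases x
  · exact check15_zero
  · exact check15_c
  · exact check15_d
  · exact List.all_eq_true.1 check15_e 0 (by decide)
  · exact List.all_eq_true.1 check15_e 1 (by decide)
  · exact List.all_eq_true.1 check15_e 2 (by decide)
  · exact List.all_eq_true.1 check15_e 3 (by decide)
  · exact List.all_eq_true.1 check15_e 4 (by decide)

/-- **the eigenvalues of the elements of order dividing 15** -/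
theorem kac15 {v' : Fin 8 → ZMod 15} (h2' : (ms chevE8 8 v').map (fun a => 2 * a) = ms chevE8 8 v') :
    cntE v' (0 : ZMod 15) < 32 ∨
      8 * cntE v' (1 : ZMod 15) + 2 * cntE v' (5 : ZMod 15) + 32 ≤ 3 * cntE v' (0 : ZMod 15) + 4 * cntE v' (3 : ZMod 15) := by
  obtain ⟨Y, hY1, hY2, hY3⟩ := exists_alcP (N := 15) (by norm_num) (fun w => ms chevE8 8 w = ms chevE8 8 v')
    (fun w j hw => by rw [ms_srefl e8T]; exact hw) (v := v') rfl
  have hinv : invB 15 2 R8 Y = true := by
    refine invB_of (by norm_num) tab8 len8 ?_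
    have h1 : ms chevE8 8 (vecL 15 Y) = (ms chevE8 8 (vecL 15 Y)).map (fun a => ((2 : ℕ) : ZMod 15) * a) := by
      rw [hY3]
      exact h2'.symm
    exact h1
  have h4 := allAlc_spec th8 15 _ (by decide) check15 Y hY1 hY2
  rw [hinv, cond_true, Bool.or_eq_true, Nat.blt_eq, Nat.ble_eq] at h4
  have hc : ∀ j : ℕ, j < 15 → cntE v' (j : ZMod 15) = cn 15 j Y + if j = 0 then 8 else 0 := by
    intro j hj
    rw [← cntE_vecL (v := vecL 15 Y) rfl hj]
    unfold cntE
    rw [hY3]
  have e0 := hc 0 (by norm_num)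
  have e1 := hc 1 (by norm_num)
  have e3 := hc 3 (by norm_num)
  have e5 := hc 5 (by norm_num)
  norm_num at e0 e1 e3 e5
  rw [e0, e1, e3, e5]
  exact h4

/-! ### the weights of the simple modules of `SL₂(16)` -/

/-- multiplicities of the eigenvalues of `y` of order 17 on `V_b` : the weights are `2 m - b`, `m` a submask of `b` -/
def w17 (b j : ℕ) : ℕ := ((subm b).filter fun m => (2 * m + 16 * b) % 17 == j).length

/-- multiplicities of the eigenvalues of `h lam` on `V_b` -/
def w15 (b j : ℕ) : ℕ := ((subm b).filter fun m => (2 * m + 14 * b) % 15 == j).length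

/-- sum over a class of exponents -/
def cls (J : List ℕ) (b : ℕ) : ℕ := (J.map fun j => w15 b j).sum

def C0 : List ℕ := [1, 0, 0, 0, 0, 0, 0, 0, 0, 0, 0, 0, 0, 0, 0, 2]
def C1 : List ℕ := [0, 1, 1, 1, 1, 0, 1, 2, 1, 1, 0, 2, 1, 2, 2, 4]
def C3 : List ℕ := [0, 0, 0, 2, 0, 2, 2, 2, 0, 2, 2, 2, 2, 2, 2, 4]
def C5 : List ℕ := [0, 0, 0, 0, 0, 2, 0, 2, 0, 0, 2, 2, 0, 2, 2, 2]

theorem cls0 : ∀ b < 16, cls [0] b = C0.getD b 0 := by decide +kernel
theorem cls1 : ∀ b < 16, cls [1, 2, 4, 8] b = C1.getD b 0 := by decide +kernel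
theorem cls3 : ∀ b < 16, cls [3, 6, 12, 9] b = C3.getD b 0 := by decide +kernel
theorem cls5 : ∀ b < 16, cls [5, 10] b = C5.getD b 0 := by decide +kernel

theorem sum_cls (m : ℕ → ℕ) (J : List ℕ) : (J.map fun j => ∑ b ∈ Finset.range 16, m b * w15 b j).sum =
    ∑ b ∈ Finset.range 16, m b * cls J b := by
  unfold cls
  induction J with
  | nil => simp
  | cons j J ih =>
    simp only [List.map_cons, List.sum_cons, mul_add, Finset.sum_add_distrib]
    rw [ih]

/-- **the bound** -/
theorem arith {m : ℕ → ℕ} {v' : Fin 8 → ZMod 15} (h2' : (ms chevE8 8 v').map (fun a => 2 * a) = ms chevE8 8 v')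
    (h15 : ∀ j : ℕ, j < 15 → cntE v' (j : ZMod 15) = ∑ b ∈ Finset.range 16, m b * w15 b j) (h0 : m 0 = 32) :
    ∑ i ∈ Finset.range 4, m (2 ^ i) ≤ 32 := by
  have hu : IsUnit (2 : ZMod 15) := by decide
  have hinj : Function.Injective (fun a : ZMod 15 => 2 * a) := fun a b h => hu.mul_left_cancel h
  have h2 : ∀ a : ZMod 15, a ≠ 0 → cntE v' (2 * a) = cntE v' a := by
    intro a ha
    have hd : ∀ a : ZMod 15, a ≠ 0 → 2 * a ≠ 0 := by decide
    unfold cntE
    rw [if_neg ha, if_neg (hd a ha)]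
    congr 1
    conv_lhs => rw [← h2']
    exact Multiset.count_map_eq_count' _ _ hinj a
  have a2 : cntE v' ((2 : ℕ) : ZMod 15) = cntE v' (1 : ZMod 15) := h2 1 (by decide)
  have a4 : cntE v' ((4 : ℕ) : ZMod 15) = cntE v' (1 : ZMod 15) := by rw [← a2]; exact h2 2 (by decide)
  have a8 : cntE v' ((8 : ℕ) : ZMod 15) = cntE v' (1 : ZMod 15) := by rw [← a4]; exact h2 4 (by decide)
  have a6 : cntE v' ((6 : ℕ) : ZMod 15) = cntE v' (3 : ZMod 15) := h2 3 (by decide)
  have a12 : cntE v' ((12 : ℕ) : ZMod 15) = cntE v' (3 : ZMod 15) := by rw [← a6]; exact h2 6 (by decide)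
  have a9 : cntE v' ((9 : ℕ) : ZMod 15) = cntE v' (3 : ZMod 15) := by rw [← a12]; exact h2 12 (by decide)
  have a10 : cntE v' ((10 : ℕ) : ZMod 15) = cntE v' (5 : ZMod 15) := h2 5 (by decide)
  have b0 : cntE v' (0 : ZMod 15) = ∑ b ∈ Finset.range 16, m b * C0.getD b 0 := by
    have h := sum_cls m [0]
    rw [Finset.sum_congr rfl fun b hb => by rw [cls0 b (Finset.mem_range.1 hb)]] at h
    rw [← h]
    simp only [List.map_cons, List.map_nil, List.sum_cons, List.sum_nil, add_zero]
    rw [← h15 0 (by norm_num), Nat.cast_zero]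
  have b1 : 4 * cntE v' (1 : ZMod 15) = ∑ b ∈ Finset.range 16, m b * C1.getD b 0 := by
    have h := sum_cls m [1, 2, 4, 8]
    rw [Finset.sum_congr rfl fun b hb => by rw [cls1 b (Finset.mem_range.1 hb)]] at h
    rw [← h]
    simp only [List.map_cons, List.map_nil, List.sum_cons, List.sum_nil, add_zero]
    rw [← h15 1 (by norm_num), ← h15 2 (by norm_num), ← h15 4 (by norm_num), ← h15 8 (by norm_num), a2, a4, a8,
      Nat.cast_one]
    ring
  have b3 : 4 * cntE v' (3 : ZMod 15) = ∑ b ∈ Finset.range 16, m b * C3.getD b 0 := by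
    have h := sum_cls m [3, 6, 12, 9]
    rw [Finset.sum_congr rfl fun b hb => by rw [cls3 b (Finset.mem_range.1 hb)]] at h
    rw [← h]
    simp only [List.map_cons, List.map_nil, List.sum_cons, List.sum_nil, add_zero]
    rw [← h15 3 (by norm_num), ← h15 6 (by norm_num), ← h15 12 (by norm_num), ← h15 9 (by norm_num), a6, a12, a9]
    have : cntE v' ((3 : ℕ) : ZMod 15) = cntE v' (3 : ZMod 15) := rfl
    rw [this]
    ring
  have b5 : 2 * cntE v' (5 : ZMod 15) = ∑ b ∈ Finset.range 16, m b * C5.getD b 0 := by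
    have h := sum_cls m [5, 10]
    rw [Finset.sum_congr rfl fun b hb => by rw [cls5 b (Finset.mem_range.1 hb)]] at h
    rw [← h]
    simp only [List.map_cons, List.map_nil, List.sum_cons, List.sum_nil, add_zero]
    rw [← h15 5 (by norm_num), ← h15 10 (by norm_num), a10]
    have : cntE v' ((5 : ℕ) : ZMod 15) = cntE v' (5 : ZMod 15) := rfl
    rw [this]
    ring
  have hk := kac15 h2'
  simp only [Finset.sum_range_succ, Finset.sum_range_zero, C0, C1, C3, C5, List.getD_cons_zero, List.getD_cons_succ] at b0 b1 b3 b5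
  simp only [Finset.sum_range_succ, Finset.sum_range_zero]
  norm_num at b0 b1 b3 b5 ⊢
  omega

end Cfsg.Agent.H167.L16
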