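import Cfsg.Agent.H167.L16.Kac15
import Cfsg.Agent.H950.L16.Data
import Cfsg.Agent.H413.L64.TorZ
import Cfsg.Agent.H939.L64.DefR

/-!
# S5916, dimension 32: the pattern (helper167)

* `SpecM16 ι ρ lam y ζ m` : `m b`, `b < 16`, are the multiplicities of the simple modules, seen from `y` (order 17) and
  `h lam` (order 15);
* `pat32` : if `dim L^y = 32` then `m 0 = 32` and `m 1 + m 2 + m 4 + m 8 ≤ 32`.
-/

set_option autoImplicit false
set_option maxRecDepth 100000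

namespace Cfsg.Agent.H167.L16

open Matrix Cfsg Cfsg.Lie
open Cfsg.Agent.H944.Kac Cfsg.Agent.H944.RootVals Cfsg.Agent.H942.E8Tab
open Cfsg.Agent.H943.SL2Rel Cfsg.Agent.H943.RepAdd Cfsg.Agent.H943.SL2Mod
open Cfsg.Agent.H939.L64 (KK E2 LK rE TorZ cntE)
open Cfsg.Agent.H950.L16 (Dat)

/-- `m b` : the multiplicity of `V_b` (in the Grothendieck group), `b < 16` -/
def SpecM16 {k F V : Type*} [Field k] [Field F] [AddCommGroup V] [Module k V] (ι : F →+* k)
    (ρ : Representation k (SpecialLinearGroup (Fin 2) F) V) (lam : Fˣ) (y : SpecialLinearGroup (Fin 2) F) (ζ : k)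
    (m : ℕ → ℕ) : Prop :=
  (∀ j < 17, Module.finrank k (eig ρ y (ζ ^ j)) = ∑ b ∈ Finset.range 16, m b * w17 b j) ∧
    ∀ j < 15, Module.finrank k (eig ρ (h lam) (ι lam ^ j)) = ∑ b ∈ Finset.range 16, m b * w15 b j

theorem w17_zero : ∀ b < 16, w17 b 0 = if b = 0 then 1 else 0 := by decide +kernel

theorem lam_prim16 {F : Type} [Field F] [Fintype F] (hF : Fintype.card F = 16) (ι : F →+* KK) {lam : Fˣ}
    (hl : ∀ x, x ∈ Subgroup.zpowers lam) : IsPrimitiveRoot (ι lam) 15 ∧ lam ^ 15 = 1 := by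
  classical
  have h1 : orderOf lam = 15 := by
    rw [orderOf_eq_card_of_forall_mem_zpowers hl, Nat.card_units, Nat.card_eq_fintype_card, hF]
  have h2 : IsPrimitiveRoot lam 15 := by
    rw [← h1]
    exact IsPrimitiveRoot.orderOf lam
  refine ⟨?_, h2.pow_eq_one⟩
  have h3 : IsPrimitiveRoot (lam : F) 15 := IsPrimitiveRoot.coe_units_iff.2 h2
  exact h3.map_of_injective ι.injective

variable {F : Type} [Field F] [Fintype F] {ι : F →+* KK} {lam : Fˣ} {y : SpecialLinearGroup (Fin 2) F} {ζ : KK}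

/-- `m 0 = dim L^y` -/
theorem m_zero {f : SpecialLinearGroup (Fin 2) F →* E2} {v : Fin 8 → ZMod 17} {ζ' : KK} (hT : TorZ (f y) 17 v ζ') {m : ℕ → ℕ}
    (hm : SpecM16 ι (rE.comp f) lam y ζ m) : m 0 = cntE v 0 := by
  have h1 := hm.1 0 (by norm_num)
  have h3 : ∑ b ∈ Finset.range 16, m b * w17 b 0 = m 0 := by
    rw [Finset.sum_eq_single 0]
    · rw [w17_zero 0 (by norm_num), if_pos rfl, mul_one]
    · intro b hb hb0
      rw [w17_zero b (Finset.mem_range.1 hb), if_neg hb0, mul_zero]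
    · intro h; exact absurd (Finset.mem_range.2 (by norm_num)) h
  rw [h3] at h1
  rw [← h1, ← Cfsg.Agent.H413.L64.T0d hT, ZMod.val_zero, pow_zero, pow_zero]
  rfl

/-- **PAT32** -/
theorem pat32 (D : Dat ι lam y ζ) {f : SpecialLinearGroup (Fin 2) F →* E2} {v : Fin 8 → ZMod 17} {ζ' : KK}
    (hT : TorZ (f y) 17 v ζ') (hv : cntE v 0 = 32) {m : ℕ → ℕ} (hm : SpecM16 ι (rE.comp f) lam y ζ m) :
    m 0 = 32 ∧ ∑ i ∈ Finset.range 4, m (2 ^ i) ≤ 32 := by
  have h0 : m 0 = 32 := (m_zero hT hm).trans hv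
  refine ⟨h0, ?_⟩
  obtain ⟨hlp, hl1⟩ := lam_prim16 D.card ι D.gen
  obtain ⟨v', hT', h2', -⟩ := Cfsg.Agent.H413.L64.T0c (N := 15) (x := f (h lam)) (by decide)
    (by rw [← map_pow, ← h_pow, hl1, h_one, map_one]) hlp
  refine arith h2' (fun j hj => ?_) h0
  rw [← hm.2 j hj, ← Cfsg.Agent.H413.L64.T0d hT', ZMod.val_natCast_of_lt hj]
  rfl

end Cfsg.Agent.H167.L16
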